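import Cfsg.Agent.Lib.Virtual
import Cfsg.Agent.Lib.CharAbelian
import Cfsg.Agent.Lib.Chars.Central
import Cfsg.Agent.Lib.Chars.Kernel
import Cfsg.Agent.Lib.Chars.Linear

/-! The inequality of Feit and Thompson for abelian subgroups met by few centralisers. -/

set_option autoImplicit false
set_option linter.unusedSectionVars false
set_option linter.style.haveILetI false

namespace CfsgLib.Chars.TIAbelian

open Cfsg CfsgLib.Chars CfsgLib.Virtual
open scoped ComplexConjugate

universe u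

variable {G : Type u} [Group G] [Fintype G]

/-- A central element of the group algebra acts as a scalar. -/
theorem repSum_value (χ : IrrCharacter G) {f : G → ℂ} (hf : IsClassFunction G f) (g : G) :
    ∑ x, f x * (χ : G → ℂ) (x * g) = (∑ x, f x * (χ : G → ℂ) x) / (χ : G → ℂ) 1 * (χ : G → ℂ) g := by
  obtain ⟨n, ρ, hρ, hc⟩ := χ.2
  have h := congrArg (fun T => LinearMap.trace ℂ (Fin n → ℂ) (T ∘ₗ ρ g)) (repSum_eq_smul ρ hρ hf)
  simp only [LinearMap.smul_comp, LinearMap.id_comp, map_smul, smul_eq_mul] at h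
  rw [← hc]
  simp only [Representation.character] at h ⊢
  rw [← h]
  simp only [repSum, ← Module.End.mul_eq_comp, Finset.sum_mul, smul_mul_assoc, map_sum, map_smul, smul_eq_mul, map_mul]

theorem central_value (χ : IrrCharacter G) {z : G} (hz : z ∈ Subgroup.center G) (g : G) :
    (χ : G → ℂ) (z * g) = (χ : G → ℂ) z / (χ : G → ℂ) 1 * (χ : G → ℂ) g := by
  classical
  have hf : IsClassFunction G (fun x => if x = z then (1 : ℂ) else 0) := by
    intro x h
    have hzc := Subgroup.mem_center_iff.1 hz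
    have : h * x * h⁻¹ = z ↔ x = z := by
      constructor
      · intro e
        calc x = h⁻¹ * (h * x * h⁻¹) * h := by group
          _ = z := by rw [e, hzc h⁻¹, mul_assoc, inv_mul_cancel, mul_one]
      · rintro rfl
        rw [hzc h, mul_inv_cancel_right]
    simp only [this]
  have h := repSum_value χ hf g
  simpa using h

theorem normSq_central (χ : IrrCharacter G) {z : G} (hz : z ∈ Subgroup.center G) :
    Complex.normSq ((χ : G → ℂ) z) = (charDegree (χ : G → ℂ) : ℝ) ^ 2 := by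
  have h := central_value χ hz z⁻¹
  rw [mul_inv_cancel, IsCharacter.map_inv (isCharacter_irr χ), irr_apply_one] at h
  have hd : (charDegree (χ : G → ℂ) : ℂ) ≠ 0 := Nat.cast_ne_zero.2 (charDegree_pos χ).ne'
  rw [eq_comm, div_mul_eq_mul_div, div_eq_iff hd, Complex.mul_conj] at h
  have h' : ((Complex.normSq ((χ : G → ℂ) z) : ℝ) : ℂ) = (((charDegree (χ : G → ℂ) : ℝ) ^ 2 : ℝ) : ℂ) := by
    rw [h]; push_cast; ring
  exact_mod_cast h'

open Classical in
/-- A normal subgroup lies in the kernel, or sums to zero. -/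
theorem normal_sum (χ : IrrCharacter G) (K : Subgroup G) [K.Normal] :
    (∀ k ∈ K, (χ : G → ℂ) k = (χ : G → ℂ) 1) ∨
      ∀ g, ∑ x ∈ Finset.univ.filter (fun x : G => x ∈ K), (χ : G → ℂ) (x * g) = 0 := by
  have hf : IsClassFunction G (fun x => if x ∈ K then (1 : ℂ) else 0) := by
    intro x h
    have : h * x * h⁻¹ ∈ K ↔ x ∈ K := (Subgroup.Normal.mem_comm_iff (H := K) inferInstance).trans (by simp)
    simp only [this]
  have h := fun g => repSum_value χ hf g
  simp only [ite_mul, one_mul, zero_mul, ← Finset.sum_filter] at h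
  by_cases hS : ∑ x ∈ Finset.univ.filter (fun x : G => x ∈ K), (χ : G → ℂ) x = 0
  · exact Or.inr fun g => by rw [h g, hS, zero_div, zero_mul]
  · refine Or.inl fun k hk => ?_
    have hk' := h k
    rw [show ∑ x ∈ Finset.univ.filter (fun x : G => x ∈ K), (χ : G → ℂ) (x * k) =
        ∑ x ∈ Finset.univ.filter (fun x : G => x ∈ K), (χ : G → ℂ) x from
      Finset.sum_nbij' (fun x => x * k) (fun x => x * k⁻¹)
        (fun x hx => Finset.mem_filter.2 ⟨Finset.mem_univ _, mul_mem (Finset.mem_filter.1 hx).2 hk⟩)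
        (fun x hx => Finset.mem_filter.2 ⟨Finset.mem_univ _, mul_mem (Finset.mem_filter.1 hx).2 (inv_mem hk)⟩)
        (fun x _ => mul_inv_cancel_right x k) (fun x _ => inv_mul_cancel_right x k) (fun _ _ => rfl)] at hk'
    rw [div_mul_eq_mul_div, eq_div_iff (irr_one_ne_zero χ)] at hk'
    exact (mul_left_cancel₀ hS hk').symm

theorem sum_normSq {φ : G → ℂ} {z : IrrCharacter G → ℤ}
    (hz : φ = ∑ θ : IrrCharacter G, (z θ : ℂ) • (θ : G → ℂ)) :
    ∑ g, Complex.normSq (φ g) = (Nat.card G : ℝ) * ((∑ θ, z θ * z θ : ℤ) : ℝ) := by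
  have h := inner_eq_sum_coord hz hz
  rw [classInner, inv_mul_eq_iff_eq_mul₀ (natCast_card_ne_zero G)] at h
  simp only [Complex.mul_conj] at h
  rw [← Complex.ofReal_sum] at h
  have h' : ((∑ g, Complex.normSq (φ g) : ℝ) : ℂ) =
      (((Nat.card G : ℝ) * ((∑ θ, z θ * z θ : ℤ) : ℝ) : ℝ) : ℂ) := by rw [h]; push_cast; rfl
  exact Complex.ofReal_injective h'

open Classical in
/-- The average of a function over `H`-cosets. -/
noncomputable def avg (H : Subgroup G) (f : G → ℂ) (g : G) : ℂ :=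
  (Nat.card H : ℂ)⁻¹ * ∑ k ∈ Finset.univ.filter (fun k : G => k ∈ H), f (k * g)

open Classical in
theorem filter_card (H : Subgroup G) : (Finset.univ.filter fun k : G => k ∈ H).card = Nat.card H := by
  rw [Nat.card_eq_fintype_card, Fintype.card_subtype]

open Classical in
theorem sum_normalizer_ge {N : Subgroup G} [Fintype N] (H : Subgroup G) (hHN : H ≤ N)
    [(H.subgroupOf N).Normal] {φ : G → ℂ} (hφ : IsCharacter G φ) (hker : ∃ h ∈ H, φ h ≠ φ 1) :
    (Nat.card N : ℝ) + ∑ g : N, Complex.normSq (avg H φ g) ≤ ∑ g : N, Complex.normSq (φ g) := by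
  have hres : IsCharacter N (fun g : N => φ g) := IsCharacter.restrict hφ N
  obtain ⟨z, -, hz⟩ := exists_coord (genChar_of_char hres)
  set T : IrrCharacter N → Prop := fun θ => ∀ k ∈ H.subgroupOf N, (θ : N → ℂ) k = (θ : N → ℂ) 1 with hT
  set z' : IrrCharacter N → ℤ := fun θ => if T θ then z θ else 0 with hz'
  have havg : (fun g : N => avg H φ g) = ∑ θ : IrrCharacter N, (z' θ : ℂ) • (θ : N → ℂ) := by
    funext g
    have h1 : ∑ k ∈ Finset.univ.filter (fun k : G => k ∈ H), φ (k * g) =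
        ∑ k ∈ Finset.univ.filter (fun k : N => k ∈ H.subgroupOf N), (fun g : N => φ g) (k * g) := by
      refine (Finset.sum_bij (fun (k : N) _ => (k : G))
        (fun k hk => Finset.mem_filter.2 ⟨Finset.mem_univ _, (Finset.mem_filter.1 hk).2⟩)
        (fun _ _ _ _ e => Subtype.ext e) (fun k hk => ?_) (fun _ _ => rfl)).symm
      exact ⟨⟨k, hHN (Finset.mem_filter.1 hk).2⟩,
        Finset.mem_filter.2 ⟨Finset.mem_univ _, (Finset.mem_filter.1 hk).2⟩, rfl⟩
    simp only [avg]
    rw [h1, hz]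
    simp only [Finset.sum_apply, Pi.smul_apply, smul_eq_mul]
    rw [Finset.sum_comm, Finset.mul_sum]
    refine Finset.sum_congr rfl fun θ _ => ?_
    rw [← Finset.mul_sum]
    by_cases hθ : T θ
    · rw [hz']
      simp only [if_pos hθ]
      rw [Finset.sum_congr rfl fun k hk => IsCharacter.mul_kernel (isCharacter_irr θ)
          (hθ k (Finset.mem_filter.1 hk).2) g, Finset.sum_const, nsmul_eq_mul,
        show (Finset.univ.filter fun k : N => k ∈ H.subgroupOf N).card = Nat.card H by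
          rw [filter_card]; exact Nat.card_congr (Subgroup.subgroupOfEquivOfLe hHN).toEquiv]
      field_simp [natCast_card_ne_zero H]
    · rw [hz']
      simp only [if_neg hθ, Int.cast_zero, zero_mul]
      rw [(normal_sum θ (H.subgroupOf N)).resolve_left hθ g, mul_zero, mul_zero]
  rw [sum_normSq hz, sum_normSq havg]
  have hex : ∃ θ, ¬ T θ ∧ z θ ≠ 0 := by
    by_contra hno
    push Not at hno
    obtain ⟨h, hh, hne⟩ := hker
    apply hne
    have e1 := congrFun hz ⟨h, hHN hh⟩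
    have e2 := congrFun hz 1
    simp only [Finset.sum_apply, Pi.smul_apply, smul_eq_mul, OneMemClass.coe_one] at e1 e2
    rw [e1, e2]
    refine Finset.sum_congr rfl fun θ _ => ?_
    by_cases hθ : T θ
    · rw [hθ ⟨h, hHN hh⟩ hh]
    · rw [hno θ hθ, Int.cast_zero, zero_mul, zero_mul]
  obtain ⟨θ₀, hθ₀, hzθ₀⟩ := hex
  have hint : 1 + ∑ θ, z' θ * z' θ ≤ ∑ θ, z θ * z θ := by
    rw [← Finset.add_sum_erase _ _ (Finset.mem_univ θ₀), ← Finset.add_sum_erase _ (fun θ => z θ * z θ) (Finset.mem_univ θ₀),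
      show z' θ₀ = 0 from if_neg hθ₀, mul_zero, zero_add]
    refine add_le_add ?_ (Finset.sum_le_sum fun θ _ => ?_)
    · have := mul_self_pos.2 hzθ₀
      omega
    · rw [hz']
      simp only
      split_ifs
      · exact le_rfl
      · rw [mul_zero]; exact mul_self_nonneg _
  have hint' : (1 : ℝ) + ((∑ θ, z' θ * z' θ : ℤ) : ℝ) ≤ ((∑ θ, z θ * z θ : ℤ) : ℝ) := by exact_mod_cast hint
  calc _ = (Nat.card N : ℝ) * (1 + ((∑ θ, z' θ * z' θ : ℤ) : ℝ)) := by ring
    _ ≤ _ := mul_le_mul_of_nonneg_left hint' (Nat.cast_nonneg _)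

open Classical in
/-- Feit–Thompson: the degree bound. -/
theorem degree_sq_gt (H : Subgroup G) (hab : ∀ a ∈ H, ∀ b ∈ H, a * b = b * a)
    (hZ : H ⊓ Subgroup.center G = ⊥)
    (hone : ∀ g : G, g ∉ Subgroup.center G → ∀ a b : G,
      Subgroup.centralizer ({g} : Set G) ⊓ H.map (MulAut.conj a).toMonoidHom ≠ ⊥ →
      Subgroup.centralizer ({g} : Set G) ⊓ H.map (MulAut.conj b).toMonoidHom ≠ ⊥ →
      H.map (MulAut.conj a).toMonoidHom = H.map (MulAut.conj b).toMonoidHom)
    (χ : IrrCharacter G) (hker : ∃ h ∈ H, (χ : G → ℂ) h ≠ (χ : G → ℂ) 1) :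
    (Nat.card H : ℝ) * Complex.normSq (avg H χ 1) < (charDegree (χ : G → ℂ) : ℝ) ^ 2 := by
  set N := Subgroup.normalizer (H : Set G) with hN
  haveI : Fintype N := Fintype.ofFinite N
  have hHN : H ≤ N := Subgroup.le_normalizer
  haveI : (H.subgroupOf N).Normal := Subgroup.normal_in_normalizer
  have hge := sum_normalizer_ge H hHN (isCharacter_irr χ) hker
  set Z := Finset.univ.filter (fun g : G => g ∈ Subgroup.center G) with hZdef
  set M := Finset.univ.filter (fun g : G => ∃ h ∈ H, h ≠ 1 ∧ g * h = h * g) with hM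
  set NS := Finset.univ.filter (fun g : G => g ∈ N) with hNS
  obtain ⟨h₀, hh₀, hh₀ne⟩ := hker
  have hh₀1 : h₀ ≠ 1 := fun h => hh₀ne (by rw [h])
  have hZM : Z ⊆ M := fun g hg => Finset.mem_filter.2
    ⟨Finset.mem_univ _, h₀, hh₀, hh₀1, ((Subgroup.mem_center_iff.1 (Finset.mem_filter.1 hg).2) h₀).symm⟩
  -- centralisers of elements meet a unique conjugate
  have hmeet : ∀ g x : G, x * g * x⁻¹ ∈ M →
      Subgroup.centralizer ({g} : Set G) ⊓ H.map (MulAut.conj x⁻¹).toMonoidHom ≠ ⊥ := by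
    intro g x hx
    obtain ⟨-, h, hh, hh1, hc⟩ := Finset.mem_filter.1 hx
    refine Subgroup.ne_bot_iff_exists_ne_one.2 ⟨⟨x⁻¹ * h * x, Subgroup.mem_inf.2 ⟨?_, ⟨h, hh, by simp⟩⟩⟩, fun e => hh1 ?_⟩
    · rw [Subgroup.mem_centralizer_singleton_iff]
      calc x⁻¹ * h * x * g = x⁻¹ * (h * (x * g * x⁻¹)) * x := by group
        _ = x⁻¹ * ((x * g * x⁻¹) * h) * x := by rw [hc]
        _ = g * (x⁻¹ * h * x) := by group
    · have e' : x⁻¹ * h * x = 1 := congrArg Subtype.val e
      calc h = x * (x⁻¹ * h * x) * x⁻¹ := by group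
        _ = 1 := by rw [e']; group
  have hsame : ∀ g : G, g ∉ Subgroup.center G → ∀ x y : G, x * g * x⁻¹ ∈ M → y * g * y⁻¹ ∈ M → y * x⁻¹ ∈ N := by
    intro g hg x y hx hy
    have h := hone g hg x⁻¹ y⁻¹ (hmeet g x hx) (hmeet g y hy)
    rw [hN, Subgroup.mem_normalizer_iff]
    intro u
    have h2 : u ∈ H ↔ x⁻¹ * u * x ∈ H.map (MulAut.conj x⁻¹).toMonoidHom := by
      refine ⟨fun hu => ⟨u, hu, by simp⟩, fun ⟨v, hv, hve⟩ => ?_⟩
      simp at hve
      exact hve ▸ hv
    rw [h2, h]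
    refine ⟨fun ⟨v, hv, hve⟩ => ?_, fun hu => ⟨_, hu, by simp [mul_assoc]⟩⟩
    simp at hve
    have : v = y * x⁻¹ * u * (y * x⁻¹)⁻¹ := by
      calc v = y * (y⁻¹ * v * y) * y⁻¹ := by group
        _ = y * (x⁻¹ * u * x) * y⁻¹ := by rw [hve]
        _ = y * x⁻¹ * u * (y * x⁻¹)⁻¹ := by group
    rwa [← this]
  have hMN : M ⊆ NS := by
    intro g hg
    refine Finset.mem_filter.2 ⟨Finset.mem_univ _, ?_⟩
    by_cases hgz : g ∈ Subgroup.center G
    · rw [hN, Subgroup.mem_normalizer_iff]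
      intro u
      rw [← (Subgroup.mem_center_iff.1 hgz) u, mul_inv_cancel_right]
    · have h1 : (1 : G) * g * 1⁻¹ ∈ M := by simpa using hg
      have h2 : g * g * g⁻¹ ∈ M := by simpa using hg
      simpa using hsame g hgz 1 g h1 h2
  -- the sum over the conjugates of M
  let F : G → ℝ := fun g => Complex.normSq ((χ : G → ℂ) g)
  have hFc : ∀ g x, F (x * g * x⁻¹) = F g := fun g x => by
    show Complex.normSq _ = _
    rw [IsCharacter.isClassFunction (isCharacter_irr χ) g x]
  have hFn : ∀ g, 0 ≤ F g := fun g => Complex.normSq_nonneg _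
  have hzc : ∀ g x : G, x * g * x⁻¹ ∈ Z ↔ g ∈ Z := fun g x => by
    simp only [hZdef, Finset.mem_filter, Finset.mem_univ, true_and]
    exact (Subgroup.Normal.mem_comm_iff (H := Subgroup.center G) inferInstance).trans (by simp)
  have hconj : (Nat.card G : ℝ) * ∑ g ∈ M \ Z, F g ≤ (Nat.card N : ℝ) * ∑ g ∈ Finset.univ \ Z, F g := by
    have h : ∑ x : G, ∑ g ∈ Finset.univ.filter (fun g => x * g * x⁻¹ ∈ M \ Z), F g =
        (Nat.card G : ℝ) * ∑ g ∈ M \ Z, F g := by
      rw [Finset.sum_congr rfl (g := fun _ => ∑ g ∈ M \ Z, F g) (fun x _ => ?_), Finset.sum_const, nsmul_eq_mul,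
        Finset.card_univ, ← Nat.card_eq_fintype_card]
      refine Finset.sum_nbij' (fun g => x * g * x⁻¹) (fun y => x⁻¹ * y * x) (fun g hg => (Finset.mem_filter.1 hg).2)
        (fun y hy => Finset.mem_filter.2 ⟨Finset.mem_univ _, by simpa [mul_assoc] using hy⟩)
        (fun g _ => by simp [mul_assoc]) (fun y _ => by simp [mul_assoc]) (fun g _ => (hFc g x).symm)
    rw [← h]
    simp only [Finset.sum_filter]
    rw [Finset.sum_comm, Finset.mul_sum, ← Finset.sum_subset (Finset.subset_univ (Finset.univ \ Z)) (fun g _ hg => ?_)]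
    · refine Finset.sum_le_sum fun g hg => ?_
      rw [← Finset.sum_filter, Finset.sum_const, nsmul_eq_mul]
      refine mul_le_mul_of_nonneg_right ?_ (hFn g)
      have hgz : g ∉ Subgroup.center G := by
        simpa [hZdef] using (Finset.mem_sdiff.1 hg).2
      rw [Nat.cast_le]
      rcases (Finset.univ.filter fun x : G => x * g * x⁻¹ ∈ M \ Z).eq_empty_or_nonempty with he | ⟨x₀, hx₀⟩
      · rw [he, Finset.card_empty]; exact Nat.zero_le _
      · rw [← filter_card N]
        refine Finset.card_le_card_of_injOn (fun x => x * x₀⁻¹) (fun x hx => ?_)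
          (fun x _ y _ h => mul_right_cancel h)
        exact Finset.mem_filter.2 ⟨Finset.mem_univ _, hsame g hgz x₀ x (Finset.mem_sdiff.1 (Finset.mem_filter.1 hx₀).2).1
          (Finset.mem_sdiff.1 (Finset.mem_filter.1 hx).2).1⟩
    · refine Finset.sum_eq_zero fun x _ => if_neg fun hx => hg (Finset.mem_sdiff.2 ⟨Finset.mem_univ _, ?_⟩)
      exact fun hgz => (Finset.mem_sdiff.1 hx).2 ((hzc g x).2 hgz)
  set d := (charDegree (χ : G → ℂ) : ℝ) with hd
  have hsumZ : ∑ g ∈ Z, F g = (Z.card : ℝ) * d ^ 2 := by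
    rw [Finset.sum_congr rfl (g := fun _ => d ^ 2) (fun g hg => normSq_central χ (Finset.mem_filter.1 hg).2),
      Finset.sum_const, nsmul_eq_mul]
  have hsumG : ∑ g, F g = (Nat.card G : ℝ) := by
    have h := sum_mul_conj_irr χ χ
    rw [if_pos rfl] at h
    simp only [Complex.mul_conj] at h
    rw [← Complex.ofReal_sum] at h
    exact_mod_cast h
  -- outside M the character equals its average
  have heq : ∀ g ∈ NS, g ∉ M → avg H χ g = (χ : G → ℂ) g := by
    intro g hg hgM
    have hgN : g ∈ N := (Finset.mem_filter.1 hg).2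
    simp only [avg]
    rw [Finset.sum_congr rfl (g := fun _ => (χ : G → ℂ) g) (fun k hk => ?_), Finset.sum_const, nsmul_eq_mul,
      filter_card, ← mul_assoc, inv_mul_cancel₀ (natCast_card_ne_zero H), one_mul]
    let ψ : H → H := fun h => ⟨(h : G) * (g * (h : G)⁻¹ * g⁻¹),
      mul_mem h.2 ((Subgroup.mem_normalizer_iff.1 hgN _).1 (inv_mem h.2))⟩
    have hψ : Function.Injective ψ := by
      intro a b hab'
      have e : (a : G) * (g * (a : G)⁻¹ * g⁻¹) = (b : G) * (g * (b : G)⁻¹ * g⁻¹) := congrArg Subtype.val hab'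
      by_contra hne
      refine hgM (Finset.mem_filter.2 ⟨Finset.mem_univ _, (b : G)⁻¹ * a, mul_mem (inv_mem b.2) a.2,
        fun h1 => hne (Subtype.ext (inv_mul_eq_one.1 h1).symm), ?_⟩)
      have e2 : g * (a : G)⁻¹ = (a : G)⁻¹ * b * g * (b : G)⁻¹ := by
        calc g * (a : G)⁻¹ = (a : G)⁻¹ * ((a : G) * (g * (a : G)⁻¹ * g⁻¹)) * g := by group
          _ = (a : G)⁻¹ * ((b : G) * (g * (b : G)⁻¹ * g⁻¹)) * g := by rw [e]
          _ = (a : G)⁻¹ * b * g * (b : G)⁻¹ := by group
      calc g * ((b : G)⁻¹ * a) = (b : G)⁻¹ * a * ((a : G)⁻¹ * b * g * (b : G)⁻¹) * a := by group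
        _ = (b : G)⁻¹ * a * (g * (a : G)⁻¹) * a := by rw [e2]
        _ = (b : G)⁻¹ * a * g := by group
    obtain ⟨h, hh⟩ := (Finite.injective_iff_surjective.1 hψ) ⟨k, (Finset.mem_filter.1 hk).2⟩
    have hk' : (h : G) * (g * (h : G)⁻¹ * g⁻¹) = k := congrArg Subtype.val hh
    rw [← hk', show (h : G) * (g * (h : G)⁻¹ * g⁻¹) * g = (h : G) * g * (h : G)⁻¹ by group]
    exact IsCharacter.isClassFunction (isCharacter_irr χ) g h
  -- the values on Z H
  set m := Complex.normSq (avg H χ 1) with hm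
  have hA : (Z.card : ℝ) * (Nat.card H : ℝ) * m ≤ ∑ g ∈ M, Complex.normSq (avg H χ g) := by
    set A := (Z ×ˢ Finset.univ.filter (fun k : G => k ∈ H)).image (fun q => q.1 * q.2) with hAdef
    have hinj : Set.InjOn (fun q : G × G => q.1 * q.2) ↑(Z ×ˢ Finset.univ.filter (fun k : G => k ∈ H)) := by
      rintro ⟨z, k⟩ hq ⟨z', k'⟩ hq' (e : z * k = z' * k')
      simp only [Finset.coe_product, Set.mem_prod, Finset.mem_coe, hZdef, Finset.mem_filter, Finset.mem_univ, true_and] at hq hq'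
      have h1 : k' * k⁻¹ ∈ H ⊓ Subgroup.center G := by
        refine Subgroup.mem_inf.2 ⟨mul_mem hq'.2 (inv_mem hq.2), ?_⟩
        have : k' * k⁻¹ = z'⁻¹ * z := by
          calc k' * k⁻¹ = z'⁻¹ * (z' * k') * k⁻¹ := by group
            _ = z'⁻¹ * (z * k) * k⁻¹ := by rw [e]
            _ = z'⁻¹ * z := by group
        rw [this]
        exact mul_mem (inv_mem hq'.1) hq.1
      rw [hZ, Subgroup.mem_bot, mul_inv_eq_one] at h1
      subst h1
      exact Prod.ext (mul_right_cancel e) rfl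
    have hAM : A ⊆ M := by
      intro g hg
      obtain ⟨⟨z, k⟩, hq, rfl⟩ := Finset.mem_image.1 hg
      simp only [Finset.mem_product, hZdef, Finset.mem_filter, Finset.mem_univ, true_and] at hq
      refine Finset.mem_filter.2 ⟨Finset.mem_univ _, h₀, hh₀, hh₀1, ?_⟩
      rw [mul_assoc, hab k hq.2 h₀ hh₀, ← mul_assoc, ← (Subgroup.mem_center_iff.1 hq.1) h₀, mul_assoc]
    refine le_trans (le_of_eq ?_) (Finset.sum_le_sum_of_subset_of_nonneg hAM fun g _ _ => Complex.normSq_nonneg _)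
    rw [hAdef, Finset.sum_image hinj, Finset.sum_congr rfl (g := fun _ => m) (fun q hq => ?_), Finset.sum_const,
      nsmul_eq_mul, Finset.card_product, filter_card, Nat.cast_mul]
    obtain ⟨z, k⟩ := q
    simp only [Finset.mem_product, hZdef, Finset.mem_filter, Finset.mem_univ, true_and] at hq
    simp only [hm, avg]
    have hd0 : Complex.normSq ((χ : G → ℂ) z / (χ : G → ℂ) 1) = 1 := by
      rw [map_div₀, normSq_central χ hq.1, irr_apply_one, Complex.normSq_natCast, ← pow_two, div_self]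
      exact pow_ne_zero 2 (Nat.cast_ne_zero.2 (charDegree_pos χ).ne')
    rw [Finset.sum_congr rfl (g := fun j => (χ : G → ℂ) z / (χ : G → ℂ) 1 * (χ : G → ℂ) (j * k)) (fun j _ => by
      rw [← central_value χ hq.1, ← mul_assoc, ← mul_assoc, (Subgroup.mem_center_iff.1 hq.1) j]), ← Finset.mul_sum,
      show ∑ j ∈ Finset.univ.filter (fun j : G => j ∈ H), (χ : G → ℂ) (j * k) =
          ∑ j ∈ Finset.univ.filter (fun j : G => j ∈ H), (χ : G → ℂ) (j * 1) from
        Finset.sum_nbij' (fun x => x * k) (fun x => x * k⁻¹)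
          (fun x hx => Finset.mem_filter.2 ⟨Finset.mem_univ _, mul_mem (Finset.mem_filter.1 hx).2 hq.2⟩)
          (fun x hx => Finset.mem_filter.2 ⟨Finset.mem_univ _, mul_mem (Finset.mem_filter.1 hx).2 (inv_mem hq.2)⟩)
          (fun x _ => mul_inv_cancel_right x k) (fun x _ => inv_mul_cancel_right x k) (fun x _ => by rw [mul_one]),
      mul_left_comm, map_mul, hd0, one_mul]
  -- putting things together
  have hconv : ∀ f : G → ℝ, ∑ g : N, f g = ∑ g ∈ NS, f g := fun f =>
    (Finset.sum_subtype NS (fun g => by simp [hNS]) f).symm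
  have hge' : (Nat.card N : ℝ) + ∑ g ∈ NS, Complex.normSq (avg H χ g) ≤ ∑ g ∈ NS, F g := by
    rw [← hconv fun g => Complex.normSq (avg H χ g), ← hconv F]
    exact hge
  have hsplit : ∀ f : G → ℝ, ∑ g ∈ NS, f g = ∑ g ∈ NS \ M, f g + (∑ g ∈ M \ Z, f g + ∑ g ∈ Z, f g) := fun f => by
    rw [Finset.sum_sdiff hZM, Finset.sum_sdiff hMN]
  rw [hsplit F, ← Finset.sum_sdiff hMN,
    Finset.sum_congr rfl (fun g hg => by rw [heq g (Finset.mem_sdiff.1 hg).1 (Finset.mem_sdiff.1 hg).2] :
      ∀ g ∈ NS \ M, Complex.normSq (avg H χ g) = F g), hsumZ] at hge'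
  rw [← Finset.sum_sdiff (Finset.subset_univ Z), hsumZ] at hsumG
  have hGpos : (0 : ℝ) < (Nat.card G : ℝ) := Nat.cast_pos.2 Nat.card_pos
  have hNpos : (0 : ℝ) < (Nat.card N : ℝ) := Nat.cast_pos.2 Nat.card_pos
  have hZpos : (0 : ℝ) < (Z.card : ℝ) :=
    Nat.cast_pos.2 (Finset.card_pos.2 ⟨1, Finset.mem_filter.2 ⟨Finset.mem_univ _, one_mem _⟩⟩)
  have hdpos : (0 : ℝ) < d := Nat.cast_pos.2 (charDegree_pos χ)
  by_contra hcon
  push Not at hcon
  have h2 : (Nat.card G : ℝ) * (Nat.card N : ℝ) ≤ (Nat.card G : ℝ) * ∑ g ∈ M \ Z, F g := by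
    refine mul_le_mul_of_nonneg_left ?_ hGpos.le
    nlinarith [mul_le_mul_of_nonneg_left hcon hZpos.le]
  have h3 : (0 : ℝ) < (Nat.card N : ℝ) * ((Z.card : ℝ) * d ^ 2) := by positivity
  have h4 := congrArg (fun t => (Nat.card N : ℝ) * t) hsumG
  simp only [mul_add] at h4
  nlinarith

theorem avg_one (H : Subgroup G) [Fintype H] (f : G → ℂ) :
    avg H f 1 = classInner (fun h : H => f h) (fun _ => 1) := by
  classical
  simp only [avg, classInner, map_one, mul_one]
  rw [Finset.sum_subtype (Finset.univ.filter fun k : G => k ∈ H) (p := fun k => k ∈ H) (fun k => by simp) f]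

/-- The second degree bound. -/
theorem one_add_degree_sq_gt (H : Subgroup G) [Fintype H] (hab : ∀ a ∈ H, ∀ b ∈ H, a * b = b * a)
    (hZ : H ⊓ Subgroup.center G = ⊥)
    (hone : ∀ g : G, g ∉ Subgroup.center G → ∀ a b : G,
      Subgroup.centralizer ({g} : Set G) ⊓ H.map (MulAut.conj a).toMonoidHom ≠ ⊥ →
      Subgroup.centralizer ({g} : Set G) ⊓ H.map (MulAut.conj b).toMonoidHom ≠ ⊥ →
      H.map (MulAut.conj a).toMonoidHom = H.map (MulAut.conj b).toMonoidHom)
    (χ : IrrCharacter G) (hd : 2 ≤ charDegree (χ : G → ℂ))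
    (hM : ∀ M : Subgroup G, M.Normal → H ≤ M → M = ⊤) :
    (Nat.card H : ℝ) < (1 + (charDegree (χ : G → ℂ) : ℝ)) ^ 2 := by
  classical
  have hbar : IsCharacter G (fun g => conj ((χ : G → ℂ) g)) :=
    IsIrrCharacter.isCharacter (isIrrCharacter_conj χ)
  set Φ : G → ℂ := fun g => (χ : G → ℂ) g * conj ((χ : G → ℂ) g) with hΦdef
  have hΦ : IsCharacter G Φ := IsCharacter.mul (isCharacter_irr χ) hbar
  have hone' : IsCharacter H (fun _ : H => (1 : ℂ)) := IsIrrCharacter.isCharacter (isIrrCharacter_one H)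
  have hcomm : ∀ a b : H, a * b = b * a := fun a b => Subtype.ext (hab a a.2 b b.2)
  choose c hc using fun θ : IrrCharacter G => exists_mult hΦ θ
  choose m hm using fun θ : IrrCharacter G => exists_mult_character (IsCharacter.restrict (isCharacter_irr θ) H) hone'
  have hexp : ∀ g, Φ g = ∑ θ : IrrCharacter G, (c θ : ℂ) * (θ : G → ℂ) g := fun g => by
    rw [classFunction_expand (IsCharacter.isClassFunction hΦ) g]
    exact Finset.sum_congr rfl fun θ _ => by rw [hc θ]
  -- restriction to H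
  have hres : IsCharacter H (fun h : H => (χ : G → ℂ) h) := IsCharacter.restrict (isCharacter_irr χ) H
  obtain ⟨z, hzc, hz⟩ := exists_coord (genChar_of_char hres)
  have hzd : (charDegree (χ : G → ℂ) : ℤ) ≤ ∑ θ : IrrCharacter H, z θ * z θ := by
    have h1 := congrFun hz 1
    simp only [Finset.sum_apply, Pi.smul_apply, smul_eq_mul, OneMemClass.coe_one] at h1
    rw [irr_apply_one, Finset.sum_congr rfl fun θ _ => by
      rw [irr_apply_one, charDegree_eq_one_of_comm hcomm θ, Nat.cast_one, mul_one]] at h1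
    have h2 : (charDegree (χ : G → ℂ) : ℤ) = ∑ θ : IrrCharacter H, z θ := by
      apply (Int.cast_injective (α := ℂ))
      push_cast
      exact h1
    rw [h2]
    exact Finset.sum_le_sum fun θ _ => Int.le_self_sq (z θ) |>.trans_eq (pow_two _)
  have hS : ∑ θ : IrrCharacter G, (c θ : ℂ) * (m θ : ℂ) = ((∑ θ : IrrCharacter H, z θ * z θ : ℤ) : ℂ) := by
    rw [← inner_eq_sum_coord hz hz]
    simp only [← hm, classInner, map_one, mul_one, Finset.mul_sum]
    rw [Finset.sum_comm]
    refine Finset.sum_congr rfl fun h _ => ?_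
    have e := hexp h
    simp only [hΦdef] at e
    rw [e, Finset.mul_sum]
    exact Finset.sum_congr rfl fun θ _ => by ring
  have hS' : ∑ θ : IrrCharacter G, (c θ : ℝ) * (m θ : ℝ) = ((∑ θ : IrrCharacter H, z θ * z θ : ℤ) : ℝ) := by
    apply Complex.ofReal_injective
    push_cast at hS ⊢
    exact hS
  have hD : ∑ θ : IrrCharacter G, (c θ : ℝ) * (charDegree (θ : G → ℂ) : ℝ) = (charDegree (χ : G → ℂ) : ℝ) ^ 2 := by
    apply Complex.ofReal_injective
    push_cast
    have e := hexp 1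
    simp only [hΦdef, irr_apply_one, map_natCast] at e
    rw [← e, pow_two]
  let one : IrrCharacter G := ⟨fun _ => 1, isIrrCharacter_one G⟩
  have hc1 : c one = 1 := by
    have h := hc one
    have h2 : classInner Φ (one : G → ℂ) = classInner (χ : G → ℂ) (χ : G → ℂ) := by
      simp only [classInner, hΦdef, one, map_one, mul_one]
    rw [h2, classInner_irr, if_pos rfl] at h
    exact_mod_cast h.symm
  have hm1 : m one = 1 := by
    have h := hm one
    have h2 : classInner (fun h : H => (one : G → ℂ) h) (fun _ : H => (1 : ℂ)) = 1 := by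
      simp only [classInner, one, map_one, mul_one, Finset.sum_const, nsmul_eq_mul, Finset.card_univ,
        ← Nat.card_eq_fintype_card]
      exact inv_mul_cancel₀ (natCast_card_ne_zero H)
    rw [h2] at h
    exact_mod_cast h.symm
  have hd1 : charDegree (one : G → ℂ) = 1 := by
    have h : (1 : ℂ) = (charDegree (one : G → ℂ) : ℂ) := irr_apply_one one
    exact_mod_cast h.symm
  set s := Real.sqrt (Nat.card H : ℝ) with hs
  have hkey : ∀ θ : IrrCharacter G, θ ≠ one → s * (m θ : ℝ) < (charDegree (θ : G → ℂ) : ℝ) := by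
    intro θ hθ
    have hker : ∃ h ∈ H, (θ : G → ℂ) h ≠ (θ : G → ℂ) 1 := by
      by_contra hno
      push Not at hno
      obtain ⟨K, hKn, hK, -⟩ := IsCharacter.exists_kernel (isCharacter_irr θ)
      have hKtop := hM K hKn fun h hh => (hK h).2 (hno h hh)
      have hconst : ∀ g, (θ : G → ℂ) g = (θ : G → ℂ) 1 := fun g => (hK g).1 (hKtop ▸ Subgroup.mem_top g)
      have h := classInner_irr θ one
      rw [if_neg hθ, classInner] at h
      simp only [one, map_one, mul_one, hconst, Finset.sum_const, nsmul_eq_mul, Finset.card_univ,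
        ← Nat.card_eq_fintype_card] at h
      rw [← mul_assoc, inv_mul_cancel₀ (natCast_card_ne_zero G), one_mul] at h
      exact irr_one_ne_zero θ h
    have h := degree_sq_gt H hab hZ hone θ hker
    rw [avg_one, hm θ, Complex.normSq_natCast] at h
    refine lt_of_pow_lt_pow_left₀ 2 (Nat.cast_nonneg _) ?_
    rw [mul_pow, hs, Real.sq_sqrt (Nat.cast_nonneg _), pow_two (m θ : ℝ)]
    exact h
  have hD' := Finset.add_sum_erase (Finset.univ : Finset (IrrCharacter G))
    (fun θ => (c θ : ℝ) * (charDegree (θ : G → ℂ) : ℝ)) (Finset.mem_univ one)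
  have hS'' := Finset.add_sum_erase (Finset.univ : Finset (IrrCharacter G))
    (fun θ => (c θ : ℝ) * (m θ : ℝ)) (Finset.mem_univ one)
  rw [hD, hc1, hd1, Nat.cast_one, one_mul] at hD'
  rw [hS', hc1, hm1, Nat.cast_one, one_mul] at hS''
  have hd2 : (2 : ℝ) ≤ (charDegree (χ : G → ℂ) : ℝ) := by exact_mod_cast hd
  obtain ⟨θ₀, hθ₀, hc₀⟩ : ∃ θ ∈ (Finset.univ : Finset (IrrCharacter G)).erase one, c θ ≠ 0 := by
    by_contra hno
    push Not at hno
    rw [Finset.sum_eq_zero fun θ hθ => by rw [hno θ hθ, Nat.cast_zero, zero_mul]] at hD'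
    nlinarith
  have hlt : ∑ θ ∈ (Finset.univ : Finset (IrrCharacter G)).erase one, s * ((c θ : ℝ) * (m θ : ℝ)) <
      ∑ θ ∈ (Finset.univ : Finset (IrrCharacter G)).erase one, (c θ : ℝ) * (charDegree (θ : G → ℂ) : ℝ) := by
    refine Finset.sum_lt_sum (fun θ hθ => ?_) ⟨θ₀, hθ₀, ?_⟩
    · rw [mul_left_comm]
      exact mul_le_mul_of_nonneg_left (hkey θ (Finset.mem_erase.1 hθ).1).le (Nat.cast_nonneg _)
    · rw [mul_left_comm]
      exact mul_lt_mul_of_pos_left (hkey θ₀ (Finset.mem_erase.1 hθ₀).1) (Nat.cast_pos.2 (Nat.pos_of_ne_zero hc₀))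
  rw [← Finset.mul_sum] at hlt
  have hzd' : (charDegree (χ : G → ℂ) : ℝ) ≤ ((∑ θ : IrrCharacter H, z θ * z θ : ℤ) : ℝ) := by exact_mod_cast hzd
  have hs0 : 0 ≤ s := Real.sqrt_nonneg _
  have hsd : s < 1 + (charDegree (χ : G → ℂ) : ℝ) := by
    have h5 := mul_le_mul_of_nonneg_left hzd' hs0
    nlinarith
  calc (Nat.card H : ℝ) = s ^ 2 := (Real.sq_sqrt (Nat.cast_nonneg _)).symm
    _ < _ := pow_lt_pow_left₀ hsd hs0 (by norm_num)

end CfsgLib.Chars.TIAbelian
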