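import Mathlib
import Cfsg.Agent.Lib.Chars.Kernel
import Cfsg.Agent.Lib.Chars.Clifford
import Cfsg.Agent.Lib.CliffordCorr
import Cfsg.Agent.Lib.CharAbelian
import Cfsg.Agent.Lib.Blocks.Orth

/-! Irreducible characters that are nonzero on exactly two classes (Gagola). -/

set_option autoImplicit false
set_option linter.style.haveILetI false

namespace CfsgLib.Chars.TwoClasses

open Cfsg CfsgLib.Chars
open scoped ComplexConjugate

universe u

variable {G : Type u} [Group G] [Finite G]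

theorem class_of_two (χ : IrrCharacter G)
    (hχ : Nat.card {C : ConjClasses G // ∃ g ∈ C.carrier, (χ : G → ℂ) g ≠ 0} = 2) :
    ∃ x : G, x ≠ 1 ∧ ∀ g : G, (χ : G → ℂ) g ≠ 0 ↔ g = 1 ∨ IsConj x g := by
  classical
  have h1m : ∃ g ∈ (ConjClasses.mk (1 : G)).carrier, (χ : G → ℂ) g ≠ 0 :=
    ⟨1, ConjClasses.mem_carrier_mk, irr_one_ne_zero χ⟩
  obtain ⟨⟨C, hC⟩, hC1, huniq⟩ := Nat.card_eq_two_iff' (⟨_, h1m⟩ :
    {C : ConjClasses G // ∃ g ∈ C.carrier, (χ : G → ℂ) g ≠ 0}) |>.mp hχ
  obtain ⟨x, hx, hx0⟩ := hC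
  rw [ConjClasses.mem_carrier_iff_mk_eq] at hx
  subst hx
  refine ⟨x, fun h => hC1 (Subtype.ext (congrArg ConjClasses.mk h)), fun g => ⟨fun hg => ?_, ?_⟩⟩
  · by_cases h1 : g = 1
    · exact Or.inl h1
    · refine Or.inr ?_
      have := huniq ⟨ConjClasses.mk g, g, ConjClasses.mem_carrier_mk, hg⟩ (fun h => h1 (by
        exact isConj_one_left.mp (ConjClasses.mk_eq_mk_iff_isConj.mp (congrArg Subtype.val h))))
      exact (ConjClasses.mk_eq_mk_iff_isConj.mp (congrArg Subtype.val this)).symm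
  · rintro (rfl | h)
    · exact irr_one_ne_zero χ
    · obtain ⟨c, rfl⟩ := isConj_iff.mp h
      rw [IsCharacter.isClassFunction (isCharacter_irr χ) x c]
      exact hx0

/-- The structure behind a character nonzero on exactly two classes. -/
theorem structureThm (hG : 2 < Nat.card G) (χ : IrrCharacter G)
    (hχ : Nat.card {C : ConjClasses G // ∃ g ∈ C.carrier, (χ : G → ℂ) g ≠ 0} = 2) :
    ∃ N : Subgroup G, N.Normal ∧ N ≠ ⊥ ∧ (∀ g : G, (χ : G → ℂ) g ≠ 0 ↔ g ∈ N) ∧
      (∀ a ∈ N, ∀ b ∈ N, a ≠ 1 → b ≠ 1 → ∃ g : G, g * a * g⁻¹ = b) ∧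
      (∀ ψ : IrrCharacter G, ψ ≠ χ → ∀ n ∈ N, (ψ : G → ℂ) n = (ψ : G → ℂ) 1) ∧
      ∃ e m : ℕ, 0 < e ∧ 0 < m ∧ Nat.card N = m + 1 ∧ (χ : G → ℂ) 1 = (e * m : ℕ) ∧
        (∀ n ∈ N, n ≠ 1 → (χ : G → ℂ) n = -(e : ℂ)) ∧ Nat.card G = e ^ 2 * m * (m + 1) ∧
        (∀ n ∈ N, n ≠ 1 → (Subgroup.centralizer ({n} : Set G)).index = m) := by
  classical
  haveI := Fintype.ofFinite G
  obtain ⟨x, hx1, hsupp⟩ := class_of_two χ hχ
  set d := charDegree (χ : G → ℂ) with hd
  have hd0 : (d : ℂ) ≠ 0 := Nat.cast_ne_zero.mpr (charDegree_pos χ).ne'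
  set K := Finset.univ.filter (fun g : G => IsConj x g) with hK
  set m := K.card with hm
  have hm0 : 0 < m := Finset.card_pos.mpr ⟨x, Finset.mem_filter.mpr ⟨Finset.mem_univ _, IsConj.refl x⟩⟩
  have h1K : (1 : G) ∉ K := fun h => hx1 (isConj_one_left.mp (Finset.mem_filter.mp h).2)
  have hsum : ∀ ψ : IrrCharacter G, ∑ g : G, (χ : G → ℂ) g * conj ((ψ : G → ℂ) g) =
      (d : ℂ) * (ψ : G → ℂ) 1 + (m : ℂ) * ((χ : G → ℂ) x * conj ((ψ : G → ℂ) x)) := by
    intro ψ
    rw [← Finset.sum_subset (Finset.subset_univ (insert 1 K)), Finset.sum_insert h1K,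
      Finset.sum_congr rfl (fun g hg => ?_) (s₂ := K), Finset.sum_const, nsmul_eq_mul, ← hm,
      irr_apply_one χ, conj_irr_one]
    · obtain ⟨c, rfl⟩ := isConj_iff.mp (Finset.mem_filter.mp hg).2
      rw [IsCharacter.isClassFunction (isCharacter_irr χ) x c,
        IsCharacter.isClassFunction (isCharacter_irr ψ) x c]
    · intro g _ hg
      have : ¬ ((χ : G → ℂ) g ≠ 0) := fun h => hg (by
        rcases (hsupp g).mp h with h | h
        · simp [h]
        · exact Finset.mem_insert_of_mem (Finset.mem_filter.mpr ⟨Finset.mem_univ _, h⟩))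
      rw [not_ne_iff.mp this, zero_mul]
  -- the trivial character differs from `χ`
  let one : IrrCharacter G := ⟨fun _ => 1, isIrrCharacter_one G⟩
  have hone : χ ≠ one := by
    intro h
    have hall : ∀ g : G, g ≠ 1 → g ∈ K := fun g hg => by
      have h2 : (χ : G → ℂ) g ≠ 0 := by rw [h]; exact one_ne_zero
      exact Finset.mem_filter.mpr ⟨Finset.mem_univ _, ((hsupp g).mp h2).resolve_left hg⟩
    have horth := sum_deg_sq (G := G)
    have h3 : Nat.card (ConjClasses G) = 2 := by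
      rw [← hχ]
      refine Nat.card_congr (Equiv.subtypeUnivEquiv fun C => ?_).symm
      obtain ⟨g, rfl⟩ := ConjClasses.mk_surjective C
      exact ⟨g, ConjClasses.mem_carrier_mk, by rw [h]; exact one_ne_zero⟩
    have hCe : Finset.univ = insert (1 : G) K := by
      ext g; by_cases hg : g = 1 <;> simp [hg, hall]
    have hcard : Nat.card G = m + 1 := by
      rw [Nat.card_eq_fintype_card, ← Finset.card_univ, hCe, Finset.card_insert_of_notMem h1K]
    -- the class size divides the group order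
    have hdvd : m ∣ Nat.card G := by
      have h4 := MulAction.index_stabilizer (ConjAct G) x
      rw [ConjAct.stabilizer_eq_centralizer] at h4
      have h5 : m = (MulAction.orbit (ConjAct G) x).ncard := by
        rw [ConjAct.orbit_eq_carrier_conjClasses, hm, ← Set.ncard_coe_finset]
        congr 1; ext g
        simp only [ConjClasses.mem_carrier_iff_mk_eq, ConjClasses.mk_eq_mk_iff_isConj, hK, Finset.coe_filter,
          Finset.mem_univ, true_and, Set.mem_ofPred_eq]
        exact ⟨fun h => h.symm, fun h => h.symm⟩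
      rw [h5, ← h4]
      exact Subgroup.index_dvd_card _
    rw [hcard, Nat.dvd_add_right (dvd_refl m)] at hdvd
    have := Nat.dvd_one.mp hdvd
    omega
  -- the value at `x`
  have hval : (m : ℂ) * (χ : G → ℂ) x = -(d : ℂ) := by
    have h := hsum one
    rw [sum_mul_conj_irr, if_neg hone] at h
    simp only [one, map_one, mul_one] at h
    linear_combination -h
  have hkill : ∀ ψ : IrrCharacter G, ψ ≠ χ → (ψ : G → ℂ) x = (ψ : G → ℂ) 1 := by
    intro ψ hψ
    have h := hsum ψ
    rw [sum_mul_conj_irr, if_neg (Ne.symm hψ), ← mul_assoc, hval] at h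
    have h2 : conj ((ψ : G → ℂ) x) = (ψ : G → ℂ) 1 :=
      mul_left_cancel₀ hd0 (by linear_combination h)
    have h3 := congrArg conj h2
    rwa [Complex.conj_conj, conj_irr_one] at h3
  -- the value is an integer
  obtain ⟨e, he⟩ : ∃ e : ℕ, (χ : G → ℂ) x = -(e : ℂ) ∧ d = e * m := by
    have hq : (χ : G → ℂ) x = (((-(d : ℚ)) / m : ℚ) : ℂ) := by
      have hm' : (m : ℂ) ≠ 0 := Nat.cast_ne_zero.mpr hm0.ne'
      push_cast
      rw [eq_div_iff hm', mul_comm, hval]
    have hint := IsCharacter.isIntegral (isCharacter_irr χ) x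
    rw [hq, ← eq_ratCast (algebraMap ℚ ℂ), isIntegral_algebraMap_iff (algebraMap ℚ ℂ).injective,
      IsIntegrallyClosed.isIntegral_iff] at hint
    obtain ⟨z, hz⟩ := hint
    have hm'' : (m : ℚ) ≠ 0 := Nat.cast_ne_zero.mpr hm0.ne'
    rw [eq_intCast, eq_div_iff hm''] at hz
    have hz2 : z * (m : ℤ) = -(d : ℤ) := by exact_mod_cast hz
    have hzneg : z ≤ 0 := by
      by_contra hz0
      push Not at hz0
      have h1 : 0 < z * (m : ℤ) := mul_pos hz0 (by exact_mod_cast hm0)
      have h2 : (0 : ℤ) ≤ (d : ℤ) := Int.natCast_nonneg d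
      omega
    refine ⟨z.natAbs, ?_, ?_⟩
    · rw [hq]
      have : (-(d : ℚ)) / m = (z : ℚ) := by rw [div_eq_iff hm'']; exact_mod_cast hz2.symm
      rw [this, Rat.cast_intCast]
      have h3 : (z : ℤ) = -(z.natAbs : ℤ) := by omega
      rw [h3]; simp
    · zify
      rw [abs_of_nonpos hzneg]
      linarith
  obtain ⟨hex, hde⟩ := he
  have he0 : 0 < e := by
    rcases Nat.eq_zero_or_pos e with h | h
    · rw [h, zero_mul] at hde; exact absurd hde (charDegree_pos χ).ne'
    · exact h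
  have hcardG : Nat.card G = e ^ 2 * m * (m + 1) := by
    have h := hsum χ
    rw [sum_mul_conj_irr, if_pos rfl, hex, map_neg, map_natCast, irr_apply_one, ← hd, hde] at h
    have h2 : ((Nat.card G : ℕ) : ℂ) = ((e ^ 2 * m * (m + 1) : ℕ) : ℂ) := by
      rw [h]; push_cast; ring
    exact_mod_cast h2
  -- the kernel of the other characters
  let N : Subgroup G :=
    { carrier := {g | ∀ ψ : IrrCharacter G, ψ ≠ χ → (ψ : G → ℂ) g = (ψ : G → ℂ) 1}
      one_mem' := fun _ _ => rfl
      mul_mem' := fun {a b} ha hb ψ hψ => by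
        rw [IsCharacter.mul_kernel (isCharacter_irr ψ) (ha ψ hψ), hb ψ hψ]
      inv_mem' := fun {a} ha ψ hψ => by
        rw [IsCharacter.map_inv (isCharacter_irr ψ), ha ψ hψ, conj_irr_one] }
  haveI hNn : N.Normal := ⟨fun n hn g ψ hψ => by
    rw [IsCharacter.isClassFunction (isCharacter_irr ψ) n g]; exact hn ψ hψ⟩
  have hNmem : ∀ g : G, g ∈ N ↔ g = 1 ∨ IsConj x g := by
    intro g
    constructor
    · intro hg
      by_contra hne
      push Not at hne
      have h := sum_deg_mul g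
      rw [if_neg hne.1, ← Finset.sum_erase_add _ _ (Finset.mem_univ χ)] at h
      have hχg : (χ : G → ℂ) g = 0 := by
        by_contra h0
        rcases (hsupp g).mp h0 with h' | h'
        · exact hne.1 h'
        · exact hne.2 h'
      rw [hχg, mul_zero, add_zero, Finset.sum_congr rfl (fun ψ hψ => by
        rw [hg ψ (Finset.ne_of_mem_erase hψ), irr_apply_one, ← Nat.cast_mul]), ← Nat.cast_sum,
        Nat.cast_eq_zero, Finset.sum_eq_zero_iff] at h
      have h2 := h one (Finset.mem_erase.mpr ⟨Ne.symm hone, Finset.mem_univ _⟩)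
      have h3 := charDegree_pos one
      exact absurd h2 (Nat.mul_pos h3 h3).ne'
    · rintro (rfl | h)
      · exact N.one_mem
      · intro ψ hψ
        obtain ⟨c, rfl⟩ := isConj_iff.mp h
        rw [IsCharacter.isClassFunction (isCharacter_irr ψ) x c, hkill ψ hψ]
  have hNK : ∀ n : G, n ∈ N → n ≠ 1 → IsConj x n := fun n hn h1 => ((hNmem n).mp hn).resolve_left h1
  refine ⟨N, hNn, ?_, fun g => (hsupp g).trans (hNmem g).symm, ?_, fun ψ hψ n hn => hn ψ hψ,
    e, m, he0, hm0, ?_, ?_, ?_, hcardG, ?_⟩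
  · intro h
    have := (hNmem x).mpr (Or.inr (IsConj.refl x))
    rw [h, Subgroup.mem_bot] at this
    exact hx1 this
  · intro a ha b hb ha1 hb1
    obtain ⟨g, hg⟩ := isConj_iff.mp ((hNK a ha ha1).symm.trans (hNK b hb hb1))
    exact ⟨g, hg⟩
  · rw [Nat.card_congr (Equiv.subtypeEquivRight hNmem), Nat.card_eq_fintype_card, Fintype.card_subtype,
      show Finset.univ.filter (fun g : G => g = 1 ∨ IsConj x g) = insert 1 K by ext g; simp [hK],
      Finset.card_insert_of_notMem h1K]
  · rw [irr_apply_one, ← hd, hde]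
  · intro n hn hn1
    obtain ⟨c, rfl⟩ := isConj_iff.mp (hNK n hn hn1)
    rw [IsCharacter.isClassFunction (isCharacter_irr χ) x c, hex]
  · intro n hn hn1
    have h4 := MulAction.index_stabilizer (ConjAct G) n
    rw [ConjAct.stabilizer_eq_centralizer] at h4
    refine h4.trans ?_
    rw [ConjAct.orbit_eq_carrier_conjClasses, hm, ← Set.ncard_coe_finset]
    congr 1; ext g
    simp only [ConjClasses.mem_carrier_iff_mk_eq, ConjClasses.mk_eq_mk_iff_isConj, hK, Finset.coe_filter,
      Finset.mem_univ, true_and, Set.mem_ofPred_eq]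
    exact ⟨fun h => (hNK n hn hn1).trans h.symm, fun h => h.symm.trans (hNK n hn hn1)⟩

variable (hG : 2 < Nat.card G) (χ : IrrCharacter G)
  (hχ : Nat.card {C : ConjClasses G // ∃ g ∈ C.carrier, (χ : G → ℂ) g ≠ 0} = 2)

include hG hχ in
/-- `χ` is faithful, and every other irreducible character is not. -/
theorem faithful_iff (ψ : IrrCharacter G) :
    (∀ g : G, (ψ : G → ℂ) g = (ψ : G → ℂ) 1 → g = 1) ↔ ψ = χ := by
  obtain ⟨N, -, hne, hsupp, -, hkill, e, m, he, hm, -, h1, hv, -, -⟩ := structureThm hG χ hχ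
  constructor
  · intro hf
    by_contra hψ
    exact hne ((Subgroup.eq_bot_iff_forall N).mpr fun n hn => hf n (hkill ψ hψ n hn))
  · rintro rfl g hg
    by_contra hg1
    have hgN : g ∈ N := (hsupp g).mp (by rw [hg]; exact irr_one_ne_zero _)
    rw [hv g hgN hg1, h1] at hg
    have h2 : ((e * m + e : ℕ) : ℂ) = 0 := by push_cast at hg ⊢; linear_combination -hg
    have := Nat.cast_eq_zero.mp h2
    omega

end CfsgLib.Chars.TwoClasses
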