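import Mathlib.RingTheory.Polynomial.Cyclotomic.Roots
import Mathlib.RingTheory.RootsOfUnity.Complex
import Mathlib.RingTheory.PowerBasis
import Mathlib.Algebra.Lie.OfAssociative
import Mathlib.LinearAlgebra.Basis.VectorSpace
import Mathlib.Analysis.Complex.Basic

/-!
The rational component of sums of roots of unity of two-power order.
-/

namespace CfsgLib.Chars.TwoPower

open scoped ComplexConjugate

/-- Integral combinations of roots of unity with `2 ^ (j + 1)`-th power one. -/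
def rootSpan (j : ℕ) : AddSubgroup ℂ := AddSubgroup.closure {w : ℂ | w ^ 2 ^ (j + 1) = 1}

/-- A rational functional picking the rational component. -/
theorem exists_component (j : ℕ) :
    ∃ L : ℂ →ₗ[ℚ] ℚ, L 1 = 1 ∧ (∀ w : ℂ, w ^ 2 ^ (j + 1) = 1 → L (conj w) = L w) ∧
      (∀ z ∈ rootSpan j, ∃ a : ℤ, L z = (a : ℚ)) ∧
      (∀ z ∈ rootSpan j, ∃ s : ℕ, L (z * conj z) = (s : ℚ) ∧ (z ≠ 0 → 1 ≤ s)) := by
  classical
  set m := 2 ^ j with hm
  have hn : 2 ^ (j + 1) = 2 * m := by rw [hm, pow_succ']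
  have hm0 : 0 < m := Nat.two_pow_pos j
  haveI : NeZero (2 ^ (j + 1)) := ⟨(Nat.two_pow_pos _).ne'⟩
  set ζ : ℂ := Complex.exp (2 * Real.pi * Complex.I / ((2 ^ (j + 1) : ℕ) : ℂ)) with hζdef
  have hζ : IsPrimitiveRoot ζ (2 ^ (j + 1)) :=
    Complex.isPrimitiveRoot_exp _ (Nat.two_pow_pos _).ne'
  have hdeg : (minpoly ℚ ζ).natDegree = m := by
    rw [← Polynomial.cyclotomic_eq_minpoly_rat hζ (Nat.two_pow_pos _),
      Polynomial.natDegree_cyclotomic, Nat.totient_prime_pow_succ Nat.prime_two, hm]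
    simp
  have hli0 := linearIndependent_pow (K := ℚ) ζ
  rw [hdeg] at hli0
  have hli : LinearIndependent ℚ (fun i : Fin m => ζ ^ (i : ℕ)) := hli0
  -- the functional
  let f0 : Submodule.span ℚ (Set.range fun i : Fin m => ζ ^ (i : ℕ)) →ₗ[ℚ] ℚ :=
    (Module.Basis.span hli).coord ⟨0, hm0⟩
  obtain ⟨L, hL⟩ := LinearMap.exists_extend f0
  have hLi : ∀ i : Fin m, L (ζ ^ (i : ℕ)) = if (i : ℕ) = 0 then 1 else 0 := by
    intro i
    have hmem : ζ ^ (i : ℕ) ∈ Submodule.span ℚ (Set.range fun i : Fin m => ζ ^ (i : ℕ)) :=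
      Submodule.subset_span ⟨i, rfl⟩
    have h := LinearMap.congr_fun hL ⟨_, hmem⟩
    rw [LinearMap.comp_apply, Submodule.subtype_apply] at h
    rw [h]
    have e : (⟨ζ ^ (i : ℕ), hmem⟩ : Submodule.span ℚ (Set.range fun i : Fin m => ζ ^ (i : ℕ))) =
        Module.Basis.span hli i := (Module.Basis.span_apply hli i).symm
    rw [e]
    simp only [f0, Module.Basis.coord_apply, Module.Basis.repr_self, Finsupp.single_apply]
    exact if_congr Fin.ext_iff rfl rfl
  have hhalf : ζ ^ m = -1 := by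
    have h2 : (ζ ^ m) ^ 2 = 1 := by rw [← pow_mul, mul_comm, ← hn, hζ.pow_eq_one]
    rcases sq_eq_one_iff.mp h2 with h | h
    · exact absurd h (hζ.pow_ne_one_of_pos_of_lt hm0.ne' (by omega))
    · exact h
  have hpow : ∀ a : ℕ, a < 2 * m → L (ζ ^ a) = if a = 0 then 1 else if a = m then -1 else 0 := by
    intro a ha
    by_cases h1 : a < m
    · have h := hLi ⟨a, h1⟩
      simp only at h
      rw [h, if_neg (show a ≠ m by omega)]
    · obtain ⟨c, rfl⟩ : ∃ c, a = m + c := ⟨a - m, by omega⟩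
      have h := hLi ⟨c, by omega⟩
      simp only at h
      rw [pow_add, hhalf, neg_one_mul, map_neg, h, if_neg (show m + c ≠ 0 by omega)]
      by_cases hc : c = 0
      · simp [hc]
      · simp [hc]
  have hnorm : ‖ζ‖ = 1 := Complex.norm_eq_one_of_pow_eq_one hζ.pow_eq_one (Nat.two_pow_pos _).ne'
  have hconj : ∀ a : ℕ, a ≤ 2 * m → conj (ζ ^ a) = ζ ^ (2 * m - a) := by
    intro a ha
    have h0 : ζ ≠ 0 := hζ.ne_zero (Nat.two_pow_pos _).ne'
    rw [map_pow, ← Complex.inv_eq_conj hnorm, inv_pow]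
    refine inv_eq_of_mul_eq_one_right ?_
    rw [← pow_add, Nat.add_sub_cancel' ha, ← hn, hζ.pow_eq_one]
  have hroot : ∀ w : ℂ, w ^ 2 ^ (j + 1) = 1 → ∃ a < 2 * m, ζ ^ a = w := fun w hw => by
    obtain ⟨a, ha, rfl⟩ := hζ.eq_pow_of_pow_eq_one hw
    exact ⟨a, hn ▸ ha, rfl⟩
  -- coordinates
  have hcoord : ∀ z ∈ rootSpan j, ∃ n : Fin m → ℤ, z = ∑ i, (n i : ℂ) * ζ ^ (i : ℕ) := by
    intro z hz
    induction hz using AddSubgroup.closure_induction with
    | mem w hw =>
      obtain ⟨a, ha, rfl⟩ := hroot w hw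
      by_cases h1 : a < m
      · refine ⟨fun i => if i = (⟨a, h1⟩ : Fin m) then 1 else 0, ?_⟩
        simp
      · obtain ⟨c, rfl⟩ : ∃ c, a = m + c := ⟨a - m, by omega⟩
        refine ⟨fun i => if i = (⟨c, by omega⟩ : Fin m) then -1 else 0, ?_⟩
        simp [pow_add, hhalf]
    | zero => exact ⟨0, by simp⟩
    | add u v _ _ hu hv =>
      obtain ⟨n, rfl⟩ := hu
      obtain ⟨n', rfl⟩ := hv
      exact ⟨n + n', by simp [add_mul, Finset.sum_add_distrib]⟩
    | neg u _ hu =>
      obtain ⟨n, rfl⟩ := hu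
      exact ⟨-n, by simp⟩
  have hLint : ∀ (n : ℤ) (v : ℂ), L ((n : ℂ) * v) = (n : ℚ) * L v := fun n v => by
    rw [← zsmul_eq_mul, map_zsmul, zsmul_eq_mul]
  refine ⟨L, ?_, ?_, ?_, ?_⟩
  · simpa using hpow 0 (by omega)
  · intro w hw
    obtain ⟨a, ha, rfl⟩ := hroot w hw
    rw [hconj a ha.le, hpow a ha]
    by_cases h0 : a = 0
    · rw [h0, Nat.sub_zero, ← hn, hζ.pow_eq_one, if_pos rfl, ← pow_zero ζ, hpow 0 (by omega),
        if_pos rfl]
    · rw [hpow _ (by omega), if_neg (show 2 * m - a ≠ 0 by omega), if_neg h0]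
      by_cases hh : a = m
      · rw [if_pos hh, if_pos (show 2 * m - a = m by omega)]
      · rw [if_neg hh, if_neg (show 2 * m - a ≠ m by omega)]
  · intro z hz
    obtain ⟨n, rfl⟩ := hcoord z hz
    refine ⟨∑ i : Fin m, if (i : ℕ) = 0 then n i else 0, ?_⟩
    rw [map_sum, Int.cast_sum]
    refine Finset.sum_congr rfl fun i _ => ?_
    rw [hLint, hLi]
    split_ifs <;> simp
  · intro z hz
    obtain ⟨n, rfl⟩ := hcoord z hz
    have hpair : ∀ i k : Fin m, L (ζ ^ (i : ℕ) * conj (ζ ^ (k : ℕ))) = if i = k then 1 else 0 := by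
      intro i k
      have hi := i.2
      have hk := k.2
      rw [hconj _ (by omega), ← pow_add]
      by_cases he : i = k
      · subst he
        rw [if_pos rfl, show (i : ℕ) + (2 * m - i) = 2 * m by omega, ← hn, hζ.pow_eq_one,
          ← pow_zero ζ, hpow 0 (by omega), if_pos rfl]
      · have hne : (i : ℕ) ≠ k := fun h => he (Fin.ext h)
        rw [if_neg he]
        by_cases hlt : (i : ℕ) < k
        · rw [hpow _ (by omega), if_neg (by omega), if_neg (by omega)]
        · rw [show (i : ℕ) + (2 * m - k) = 2 * m + (i - k : ℕ) by omega, pow_add, ← hn,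
            hζ.pow_eq_one, one_mul, hpow _ (by omega), if_neg (by omega), if_neg (by omega)]
    refine ⟨∑ i, (n i).natAbs ^ 2, ?_, fun hne => ?_⟩
    · rw [map_sum, Finset.sum_mul]
      simp only [Finset.mul_sum, map_sum, map_mul, map_intCast]
      rw [Nat.cast_sum]
      refine Finset.sum_congr rfl fun i _ => ?_
      rw [Finset.sum_eq_single i]
      · rw [show (n i : ℂ) * ζ ^ (i : ℕ) * ((n i : ℂ) * conj (ζ ^ (i : ℕ))) =
            ((n i * n i : ℤ) : ℂ) * (ζ ^ (i : ℕ) * conj (ζ ^ (i : ℕ))) by push_cast; ring,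
          hLint, hpair, if_pos rfl, mul_one, sq, ← Int.cast_natCast]
        push_cast
        exact_mod_cast (abs_mul_abs_self (n i)).symm
      · intro k _ hk
        rw [show (n i : ℂ) * ζ ^ (i : ℕ) * ((n k : ℂ) * conj (ζ ^ (k : ℕ))) =
            ((n i * n k : ℤ) : ℂ) * (ζ ^ (i : ℕ) * conj (ζ ^ (k : ℕ))) by push_cast; ring,
          hLint, hpair, if_neg (Ne.symm hk), mul_zero]
      · intro h; exact absurd (Finset.mem_univ i) h
    · obtain ⟨i, hi⟩ : ∃ i, n i ≠ 0 := by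
        by_contra h
        push Not at h
        exact hne (by simp [h])
      refine le_trans ?_ (Finset.single_le_sum (f := fun i => (n i).natAbs ^ 2)
        (fun _ _ => Nat.zero_le _) (Finset.mem_univ i))
      exact Nat.one_le_iff_ne_zero.mpr (pow_ne_zero _ (Int.natAbs_ne_zero.mpr hi))

end CfsgLib.Chars.TwoPower
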